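import Cfsg.Agent.Lib.TwoGrp.Har2
import Cfsg.Agent.Lib.TwoGrp.Tools
import Cfsg.Agent.Lib.Char.Galois
import Cfsg.Agent.Lib.Fit.Frattini

/-! # Fields of values at 2-elements and Sylow 2-subgroups of maximal class -/

set_option autoImplicit false

namespace Cfsg.Agent.TwoGrp.ValField

open Subgroup Cfsg.Agent.Char

theorem mem_adjoin_of_forall {A : Set ℂ} (hA : ∀ a ∈ A, IsIntegral ℚ a) {x : ℂ}
    (hx : IsIntegral ℚ x) (h : ∀ τ : ℂ ≃+* ℂ, (∀ a ∈ A, τ a = a) → τ x = x) :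
    x ∈ IntermediateField.adjoin ℚ A := by
  let K := algebraicClosure ℚ ℂ
  have : IsAlgClosure ℚ K := algebraicClosure.isAlgClosure ℚ ℂ
  have : IsGalois ℚ K := IsAlgClosure.isGalois ℚ K
  let x' : K := ⟨x, mem_algebraicClosure_iff'.2 hx⟩
  let L : IntermediateField ℚ K := IntermediateField.adjoin ℚ (K.val ⁻¹' A)
  have h1 : x' ∈ L := by
    rw [← InfiniteGalois.fixedField_fixingSubgroup L, IntermediateField.mem_fixedField_iff]
    intro σ hσ
    obtain ⟨τ, hτ⟩ := exists_ringEquiv_extend (L := ℂ) σ.toRingEquiv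
    refine Subtype.ext ((hτ x').symm.trans (h τ fun a ha => ?_))
    let a' : K := ⟨a, mem_algebraicClosure_iff'.2 (hA a ha)⟩
    have h2 : σ a' = a' := (IntermediateField.mem_fixingSubgroup_iff _ _).1 hσ a'
      (IntermediateField.subset_adjoin ℚ _ ha)
    exact (hτ a').trans (congrArg Subtype.val h2)
  have h2 : L ≤ (IntermediateField.adjoin ℚ A).comap K.val :=
    IntermediateField.adjoin_le_iff.2 fun a ha => IntermediateField.subset_adjoin ℚ A ha
  exact h2 h1

theorem fix_of_mem_adjoin {A : Set ℂ} (τ : ℂ ≃+* ℂ) (h : ∀ a ∈ A, τ a = a) {x : ℂ}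
    (hx : x ∈ IntermediateField.adjoin ℚ A) : τ x = x := by
  induction hx using IntermediateField.adjoin_induction with
  | mem a ha => exact h a ha
  | algebraMap q => exact map_ratCast τ q
  | add a b _ _ ha hb => rw [map_add, ha, hb]
  | inv a _ ha => rw [map_inv₀, ha]
  | mul a b _ _ ha hb => rw [map_mul, ha, hb]

theorem adjoin_eq_iff {A B : Set ℂ} (hA : ∀ a ∈ A, IsIntegral ℚ a) (hB : ∀ a ∈ B, IsIntegral ℚ a) :
    IntermediateField.adjoin ℚ A = IntermediateField.adjoin ℚ B ↔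
      ∀ τ : ℂ ≃+* ℂ, (∀ a ∈ A, τ a = a) ↔ ∀ a ∈ B, τ a = a := by
  refine ⟨fun e τ => ⟨fun h a ha => fix_of_mem_adjoin τ h (e ▸ IntermediateField.subset_adjoin ℚ _ ha),
    fun h a ha => fix_of_mem_adjoin τ h (e ▸ IntermediateField.subset_adjoin ℚ _ ha)⟩, fun h => ?_⟩
  exact le_antisymm (IntermediateField.adjoin_le_iff.2 fun a ha =>
      mem_adjoin_of_forall hB (hA a ha) fun τ hτ => (h τ).2 hτ a ha)
    (IntermediateField.adjoin_le_iff.2 fun a ha =>
      mem_adjoin_of_forall hA (hB a ha) fun τ hτ => (h τ).1 hτ a ha)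

variable {G : Type*} [Group G] [Finite G]

/-- The equality of fields in terms of fusion of powers. -/
theorem field_iff {g : G} {n N c : ℕ} (hg : g ^ 2 ^ n = 1) (hn : n ≠ 0) {ζ ε : ℂ}
    (hζ : IsPrimitiveRoot ζ N) (hN : N ∣ 2 ^ n) (hε : ε = ζ ^ c) (hε2 : ε = 1 ∨ ε = -1) :
    IntermediateField.adjoin ℚ {z : ℂ | ∃ χ : Cfsg.IrrCharacter G, (χ : G → ℂ) g = z} =
      IntermediateField.adjoin ℚ ({ζ + ε * ζ⁻¹} : Set ℂ) ↔
      ∀ m : ℕ, Odd m → (IsConj g (g ^ m) ↔ m ≡ 1 [MOD N] ∨ m + 1 ≡ c [MOD N]) := by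
  have hN0 : 0 < N := Nat.pos_of_dvd_of_pos hN (by positivity)
  have hζ0 : ζ ≠ 0 := hζ.ne_zero hN0.ne'
  have hζn : ζ ^ 2 ^ n = 1 := (hζ.pow_eq_one_iff_dvd _).2 hN
  have hζi : IsIntegral ℚ ζ := (hζ.isIntegral hN0).tower_top
  have key : ∀ (τ : ℂ ≃+* ℂ) (m : ℕ), (∀ z : ℂ, z ^ 2 ^ n = 1 → τ z = z ^ m) →
      ((∀ a ∈ {z : ℂ | ∃ χ : Cfsg.IrrCharacter G, (χ : G → ℂ) g = z}, τ a = a) ↔
        IsConj g (g ^ m)) ∧
      ((∀ a ∈ ({ζ + ε * ζ⁻¹} : Set ℂ), τ a = a) ↔ m ≡ 1 [MOD N] ∨ m + 1 ≡ c [MOD N]) := by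
    intro τ m hτ
    have h1 : ∀ χ : Cfsg.IrrCharacter G, τ ((χ : G → ℂ) g) = (χ : G → ℂ) (g ^ m) := fun χ =>
      ringHom_apply_of_isGen (isGen_of_isIrr χ.2) τ.toRingHom hτ hg
    refine ⟨?_, ?_⟩
    · rw [isConj_iff_irr]
      refine ⟨fun h χ => (h _ ⟨χ, rfl⟩).symm.trans (h1 χ), ?_⟩
      rintro h _ ⟨χ, rfl⟩
      rw [h1, ← h]
    · have hτε : τ ε = ε := by rcases hε2 with rfl | rfl <;> simp
      simp only [Set.mem_singleton_iff, forall_eq, map_add, map_mul, map_inv₀, hτε, hτ ζ hζn]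
      have hfin : IsOfFinOrder ζ := isOfFinOrder_iff_pow_eq_one.2 ⟨N, hN0, hζ.pow_eq_one⟩
      rw [hζ.eq_orderOf, ← hfin.pow_eq_pow_iff_modEq, ← hfin.pow_eq_pow_iff_modEq, ← hε, pow_one,
        ← sub_eq_zero (a := ζ ^ m), ← sub_eq_zero (a := ζ ^ (m + 1)), ← mul_eq_zero]
      have hm0 : ζ ^ m ≠ 0 := pow_ne_zero _ hζ0
      rw [pow_succ]
      constructor
      · intro h
        field_simp at h
        linear_combination h
      · intro h
        field_simp
        linear_combination h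
  rw [adjoin_eq_iff]
  · constructor
    · intro h m hm
      obtain ⟨τ, hτ⟩ := exists_ringEquiv_pow (n := 2 ^ n) (m := m) (by positivity)
        (Nat.Coprime.pow_right _ (Nat.coprime_two_right.2 hm))
      rw [← (key τ m hτ).1, h, (key τ m hτ).2]
    · intro h τ
      obtain ⟨m, hm, hτ⟩ := exists_pow_of_ringHom τ.toRingHom (n := 2 ^ n) (by positivity)
      rw [(key τ m hτ).1, (key τ m hτ).2]
      exact h m (Nat.coprime_two_right.1 ((Nat.coprime_pow_right_iff (Nat.pos_of_ne_zero hn) _ _).1 hm))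
  · rintro _ ⟨χ, rfl⟩
    exact (isIntegral_of_isGen (isGen_of_isIrr χ.2) g).tower_top
  · rintro _ rfl
    refine hζi.add (IsIntegral.mul ?_ hζi.inv)
    rw [hε]; exact hζi.pow _

section TwoGroup

variable {T : Type*} [Group T] [Finite T] [hT : Fact (IsPGroup 2 T)]

theorem index_commutator : (commutator T).index = 2 ^ (lg (⊤ : Subgroup T) - lg (commutator T)) := by
  rw [← relIndex_top_right, relIndex_eq_lg, inf_top_eq]

omit [Finite T] hT in
theorem lg_zpowers_of {x : T} {k : ℕ} (h : orderOf x = 2 ^ k) : lg (zpowers x) = k :=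
  lg_eq_of_card (by rw [Nat.card_zpowers, h])

/-- If a central element generates a subgroup of index at most two, the group is abelian. -/
theorem comm_of_central {x : T} (hx : lg (⊤ : Subgroup T) ≤ lg (zpowers x) + 1)
    (hc : ∀ y, Commute y x) (a b : T) : Commute a b := by
  have h1 : ∀ a ∈ zpowers x, ∀ b, Commute b a := by
    rintro _ ⟨k, rfl⟩ b; exact (hc b).zpow_right k
  by_cases ha : a ∈ zpowers x
  · exact (h1 a ha b).symm
  by_cases hb : b ∈ zpowers x
  · exact h1 b hb a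
  have := h1 _ (mul_mem_of_lg le_top hx (mem_top a⁻¹) (mem_top b) (by rwa [inv_mem_iff]) hb) a
  have e : b = a * (a⁻¹ * b) := by group
  rw [e]; exact (Commute.refl a).mul_right this

omit [Finite T] hT in
theorem commutator_ne_bot (h : ¬ ∀ a b : T, Commute a b) : commutator T ≠ ⊥ := fun h0 => h (by
  rw [_root_.commutator_def, commutator_eq_bot_iff_le_centralizer] at h0
  exact fun a b => (h0 (mem_top b) a (mem_top a)))

theorem lg_comm_le (h : ¬ ∀ a b : T, Commute a b) :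
    lg (commutator T) + 2 ≤ lg (⊤ : Subgroup T) := by
  by_contra hlt
  have h1 : Nat.card (T ⧸ commutator T) ∣ 2 := by
    rw [← index_eq_card, index_commutator]
    exact (pow_dvd_pow 2 (by omega)).trans (pow_one 2).dvd
  have hc : IsCyclic (T ⧸ commutator T) := isCyclic_of_card_dvd_prime h1
  obtain ⟨x, hx⟩ := hc.exists_generator
  obtain ⟨x, rfl⟩ := QuotientGroup.mk_surjective x
  have h2 : zpowers x ⊔ commutator T = ⊤ := by
    refine eq_top_iff.2 fun y _ => ?_
    obtain ⟨k, hk⟩ := hx (y : T ⧸ commutator T)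
    have : (x ^ k)⁻¹ * y ∈ commutator T := QuotientGroup.eq.1 hk
    simpa using mul_mem (mem_sup_left (zpow_mem_zpowers x k)) (mem_sup_right this)
  have h3 : commutator T ≤ frattini T := Fit.commutator_le_frattini hT.out
  have h4 := frattini_nongenerating (eq_top_iff.2 (h2 ▸ sup_le_sup_left h3 _))
  refine h fun a b => ?_
  obtain ⟨i, rfl⟩ : a ∈ zpowers x := h4 ▸ mem_top a
  obtain ⟨j, rfl⟩ : b ∈ zpowers x := h4 ▸ mem_top b
  exact (Commute.refl x).zpow_zpow i j

theorem exists_odd_conj {x : T} (hx : lg (⊤ : Subgroup T) ≤ lg (zpowers x) + 1) (hx1 : x ≠ 1)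
    (y : T) : ∃ k : ℕ, Odd k ∧ y * x * y⁻¹ = x ^ k := by
  obtain ⟨k, hk⟩ := (mem_powers_iff_mem_zpowers.2
    (conj_mem_of_lg le_top hx (mem_top y) (mem_zpowers x)) : _)
  refine ⟨k, ?_, hk.symm⟩
  have h1 : orderOf (x ^ k) = orderOf x := by
    rw [show x ^ k = y * x * y⁻¹ from hk]
    exact (orderOf_eq_of_isConj (isConj_iff.2 ⟨y, rfl⟩)).symm
  have h2 := (orderOf_pow x (n := k)).symm.trans h1
  obtain ⟨j, hj⟩ := IsPGroup.iff_orderOf.1 hT.out x
  by_contra hk2
  have hj0 : j ≠ 0 := fun e => hx1 (orderOf_eq_one_iff.1 (by rw [hj, e, pow_zero]))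
  have h3 : 2 ∣ (orderOf x).gcd k := Nat.dvd_gcd (hj ▸ dvd_pow_self 2 hj0)
    (even_iff_two_dvd.1 (Nat.not_odd_iff_even.1 hk2))
  have h4 : 0 < orderOf x := orderOf_pos x
  have h5 := Nat.div_le_div_left (a := orderOf x) (Nat.le_of_dvd (Nat.gcd_pos_of_pos_left _ h4) h3)
    (by norm_num : 0 < 2)
  omega

/-- The maximal class case: the action on the cyclic subgroup of index two. -/
theorem exists_gen {n : ℕ} (hn : 3 ≤ n) (hc : lg (⊤ : Subgroup T) = n)
    (h : (commutator T).index = 4) : ∃ x : T, orderOf x = 2 ^ (n - 1) ∧ (¬ ∀ y, Commute y x) ∧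
      ∃ k c : ℕ, (c = 0 ∨ c = 2 ^ (n - 2)) ∧ x ^ (k + 1) = x ^ c ∧
        (∃ y, y * x * y⁻¹ = x ^ k) ∧ ∀ y, y * x * y⁻¹ = x ∨ y * x * y⁻¹ = x ^ k := by
  have h1 : lg (⊤ : Subgroup T) - lg (commutator T) = 2 :=
    Nat.pow_right_injective le_rfl (index_commutator.symm.trans h)
  have hna : ¬ ∀ a b : T, Commute a b := fun h5 => by
    have : commutator T = ⊥ := by
      rw [_root_.commutator_def, commutator_eq_bot_iff_le_centralizer]; exact fun a _ b _ => h5 b a
    rw [this, lg_bot] at h1; omega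
  obtain ⟨x, hx⟩ := taussky _ T rfl (by omega)
  have hnc : ¬ ∀ y, Commute y x := fun h5 => hna (comm_of_central hx h5)
  obtain ⟨y, hy⟩ := not_forall.1 hnc
  have hyX : y ∉ zpowers x := by rintro ⟨k, rfl⟩; exact hy ((Commute.refl x).zpow_left k)
  have hlt := lg_lt' (le_top : zpowers x ≤ ⊤) (mem_top y) hyX
  have ho : orderOf x = 2 ^ (n - 1) := by
    rw [← Nat.card_zpowers, card_eq_lg]; congr 1; omega
  have hx1 : x ≠ 1 := fun e => hy (e ▸ Commute.one_right y)
  obtain ⟨k, hk, e⟩ := exists_odd_conj hx hx1 y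
  have hcomm : ∀ a ∈ zpowers x, ∀ b ∈ zpowers x, a * b = b * a := by
    rintro _ ⟨i, rfl⟩ _ ⟨j, rfl⟩; exact (Commute.refl x).zpow_zpow i j
  have hconj : ∀ g, ∀ w ∈ zpowers x, g * w * g⁻¹ ∈ zpowers x := fun g w hw =>
    conj_mem_of_lg le_top hx (mem_top g) hw
  have hyy : y * y ∈ zpowers x := sq_mem_of_lg le_top hx (mem_top y)
  have hdec : ∀ g, g ∈ zpowers x ∨ ∃ w ∈ zpowers x, g = y * w := fun g => by
    by_cases hg : g ∈ zpowers x
    · exact Or.inl hg
    · exact Or.inr ⟨y⁻¹ * g, mul_mem_of_lg le_top hx (mem_top _) (mem_top _)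
        (by rwa [inv_mem_iff]) hg, by group⟩
  let I : Subgroup T :=
    { carrier := {w | w ∈ zpowers x ∧ y * w * y⁻¹ = w⁻¹}
      one_mem' := ⟨one_mem _, by simp⟩
      mul_mem' := fun {a b} ha hb => ⟨mul_mem ha.1 hb.1, by
        rw [hcomm a ha.1 b hb.1, mul_inv_rev, ← ha.2, ← hb.2, ← hcomm a ha.1 b hb.1]; group⟩
      inv_mem' := fun {a} ha => ⟨inv_mem ha.1, by
        calc y * a⁻¹ * y⁻¹ = (y * a * y⁻¹)⁻¹ := by group
          _ = _ := by rw [ha.2]⟩ }
  have hδ : ∀ w ∈ zpowers x, y * w * y⁻¹ * w⁻¹ ∈ I := fun w hw =>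
    ⟨mul_mem (hconj y w hw) (inv_mem hw), by
      calc y * (y * w * y⁻¹ * w⁻¹) * y⁻¹ = (y * y * w) * (y * y)⁻¹ * (y * w⁻¹ * y⁻¹) := by group
        _ = _ := by rw [hcomm _ hyy w hw]; group⟩
  have hI : commutator T ≤ I := by
    rw [_root_.commutator_def, commutator_le]
    intro a _ b _
    rw [commutatorElement_def]
    rcases hdec a with ha | ⟨w, hw, rfl⟩ <;> rcases hdec b with hb | ⟨w', hw', rfl⟩
    · rw [hcomm a ha b hb]; simp
    · have := I.inv_mem (hδ a ha)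
      convert this using 1
      calc a * (y * w') * a⁻¹ * (y * w')⁻¹ = a * y * (w' * a⁻¹) * w'⁻¹ * y⁻¹ := by group
        _ = _ := by rw [hcomm w' hw' _ (inv_mem ha)]; group
    · have := hδ b hb
      convert this using 1
      calc y * w * b * (y * w)⁻¹ * b⁻¹ = y * (w * b) * w⁻¹ * y⁻¹ * b⁻¹ := by group
        _ = _ := by rw [hcomm w hw b hb]; group
    · have h2 := hδ _ (mul_mem hw' (inv_mem hw))
      have h3 := I.inv_mem h2
      rw [← h2.2] at h3
      convert h3 using 1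
      have h4 := hcomm w hw _ (hconj y _ (mul_mem hw' (inv_mem hw)))
      calc y * w * (y * w') * (y * w)⁻¹ * (y * w')⁻¹
          = y * (w * (y * (w' * w⁻¹) * y⁻¹)) * w'⁻¹ * y⁻¹ := by group
        _ = _ := by rw [h4]; group
  have hlI := lg_mono hI
  have hx2 : x * x ∈ I := sq_mem_of_lg (M := I) (K := zpowers x) (fun w hw => hw.1) (by omega)
    (mem_zpowers x)
  have h2 : x ^ (2 * (k + 1)) = 1 := by
    have h3 : y * (x * x) * y⁻¹ = x ^ k * x ^ k := by rw [← e]; group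
    rw [hx2.2] at h3
    calc x ^ (2 * (k + 1)) = (x * x) * (x ^ k * x ^ k) := by
          rw [← pow_add, ← sq, ← pow_add]; congr 1; ring
      _ = 1 := by rw [← h3, mul_inv_cancel]
  have h3 : 2 ^ (n - 2) ∣ k + 1 := by
    have := orderOf_dvd_of_pow_eq_one h2
    rw [ho, show n - 1 = n - 2 + 1 by omega, pow_succ'] at this
    exact Nat.dvd_of_mul_dvd_mul_left (by norm_num) this
  obtain ⟨j, hj⟩ := h3
  refine ⟨x, ho, hnc, k, 2 ^ (n - 2) * (j % 2), ?_, ?_, ⟨y, e⟩, fun g => ?_⟩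
  · rcases Nat.mod_two_eq_zero_or_one j with h4 | h4 <;> simp [h4]
  · rw [pow_eq_pow_iff_modEq, ho, hj, show n - 1 = n - 2 + 1 by omega, pow_succ]
    exact (Nat.mod_modEq j 2).symm.mul_left' _
  · rcases hdec g with hg | ⟨w, hw, rfl⟩
    · left; rw [hcomm g hg x (mem_zpowers x), mul_inv_cancel_right]
    · right
      calc y * w * x * (y * w)⁻¹ = y * (w * x) * w⁻¹ * y⁻¹ := by group
        _ = _ := by rw [hcomm w hw x (mem_zpowers x), ← e]; group

/-- The converse. -/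
theorem index_eq_four {n c : ℕ} (hn : 3 ≤ n) (hT' : lg (⊤ : Subgroup T) = n) {x : T}
    (hnc : ¬ ∀ y, Commute y x) (hc : c = 0 ∨ c = 2 ^ (n - 2))
    (h1 : ∀ m : ℕ, Odd m → IsConj x (x ^ m) → m ≡ 1 [MOD 2 ^ (n - 1)] ∨
      m + 1 ≡ c [MOD 2 ^ (n - 1)]) : (commutator T).index = 4 := by
  have hna : ¬ ∀ a b : T, Commute a b := fun h => hnc fun y => h y x
  have h2 := lg_comm_le hna
  suffices h : n - 2 ≤ lg (commutator T) by
    rw [index_commutator, show lg (⊤ : Subgroup T) - lg (commutator T) = 2 by omega]; rfl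
  obtain ⟨y, hy⟩ := not_forall.1 hnc
  have hyX : y ∉ zpowers x := by rintro ⟨k, rfl⟩; exact hy ((Commute.refl x).zpow_left k)
  have hlt := lg_lt' (le_top : zpowers x ≤ ⊤) (mem_top y) hyX
  have ho : orderOf x = 2 ^ lg (zpowers x) := by rw [← Nat.card_zpowers, card_eq_lg]
  obtain ⟨r, rfl⟩ : ∃ r, n = r + 3 := ⟨n - 3, by omega⟩
  simp only [show r + 3 - 1 = r + 2 from rfl, show r + 3 - 2 = r + 1 from rfl] at hc h1 ⊢
  have hp : 0 < 2 ^ r := by positivity
  by_cases hl : lg (zpowers x) ≤ r + 1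
  · have h3 : x ^ (2 ^ (r + 1) + 1) = x := by
      rw [pow_succ, orderOf_dvd_iff_pow_eq_one.1 (ho ▸ pow_dvd_pow 2 hl), one_mul]
    have h4 := h1 (2 ^ (r + 1) + 1) (by rw [pow_succ]; exact ⟨2 ^ r, by ring⟩)
      (by rw [h3])
    have hr : r = 0 := by
      have e2 : 2 ^ (r + 2) = 4 * 2 ^ r := by ring
      have e1 : 2 ^ (r + 1) = 2 * 2 ^ r := by ring
      rw [e2, e1] at h4
      rw [e1] at hc
      have h5 : 2 ^ r = 1 := by
        rcases h4 with h4 | h4
        · have := Nat.le_of_dvd (by omega) ((Nat.modEq_iff_dvd' (by omega)).1 h4.symm); omega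
        · rcases hc with rfl | rfl
          · have := Nat.le_of_dvd (by omega) ((Nat.modEq_iff_dvd' (by omega)).1 h4.symm); omega
          · have := Nat.le_of_dvd (by omega) ((Nat.modEq_iff_dvd' (by omega)).1 h4.symm); omega
      simpa using h5
    subst hr
    have := lg_lt (bot_le : ⊥ ≤ commutator T) fun h => commutator_ne_bot hna (le_bot_iff.1 h)
    rw [lg_bot] at this
    omega
  · have hl' : lg (zpowers x) = r + 2 := by omega
    rw [hl'] at ho
    have hx1 : x ≠ 1 := fun e => hy (e ▸ Commute.one_right y)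
    obtain ⟨k, hk, e⟩ := exists_odd_conj (by omega) hx1 y
    have hmem : x ^ k * x⁻¹ ∈ commutator T := by
      rw [← e, _root_.commutator_def]
      exact commutator_mem_commutator (mem_top y) (mem_top x)
    have hne : x ^ k ≠ x := fun h => hy (by
      rw [h, mul_inv_eq_iff_eq_mul] at e; exact e)
    have h3 := h1 k hk (isConj_iff.2 ⟨y, e⟩)
    rw [← ho, ← pow_eq_pow_iff_modEq, ← pow_eq_pow_iff_modEq, pow_one] at h3
    have h4 : x ^ k * x⁻¹ * (x * x) = x ^ c := by rw [← h3.resolve_left hne, pow_succ]; group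
    have hx2 : x * x ∈ commutator T := by
      refine (mul_mem_cancel_left hmem).1 ?_
      rw [h4]
      rcases hc with rfl | rfl
      · simp
      · rcases r with _ | r
        · exact absurd (by
            have : x ^ k * x⁻¹ * (x * x) = 1 * (x * x) := by rw [h4]; simp [sq]
            exact mul_inv_eq_one.1 (mul_right_cancel this)) hne
        · have h5 : x ^ 4 ∈ commutator T := by
            have h6 : x ^ k * x⁻¹ = x ^ 2 ^ (r + 1 + 1) * (x * x)⁻¹ := by rw [← h4]; group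
            have h7 : x ^ 2 ^ (r + 1 + 1) * x ^ 2 ^ (r + 1 + 1) = 1 := by
              rw [← pow_add, ← mul_two, ← pow_succ, ← ho, pow_orderOf_eq_one]
            have h8 : (x ^ k * x⁻¹) * (x ^ k * x⁻¹) = (x ^ 4)⁻¹ := by
              rw [h6, ← one_mul (x ^ 4)⁻¹, ← h7]; group
            exact inv_mem_iff.1 (h8 ▸ mul_mem hmem hmem)
          rw [show 2 ^ (r + 1 + 1) = 4 * 2 ^ r by ring, pow_mul]
          exact pow_mem h5 _
    have h5 := lg_mono (zpowers_le.2 hx2)
    rwa [lg_zpowers_of (k := r + 1) (by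
      rw [← sq, orderOf_pow_of_dvd (by norm_num) (ho ▸ dvd_pow_self 2 (by omega)), ho, pow_succ,
        Nat.mul_div_cancel _ (by norm_num)])] at h5

end TwoGroup

/-- Fusion of generators of a cyclic subgroup normalized by a Sylow 2-subgroup. -/
theorem exists_sylow_conj (P : Sylow 2 G) {x g : G} {j : ℕ} (hx : orderOf x = 2 ^ j)
    (hP : (P : Subgroup G) ≤ normalizer (zpowers x : Set G))
    (hg : g ∈ normalizer (zpowers x : Set G)) :
    ∃ p ∈ (P : Subgroup G), g * x * g⁻¹ = p * x * p⁻¹ := by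
  let f := (zpowers x).normalizerMonoidHom
  have h1 := index_map_dvd ((P : Subgroup G).subgroupOf (normalizer (zpowers x : Set G)))
    f.rangeRestrict_surjective
  have h2 := (index_dvd_card (((P : Subgroup G).subgroupOf _).map f.rangeRestrict)).trans
    (card_subgroup_dvd_card f.range)
  rw [IsCyclic.card_mulAut, Nat.card_zpowers, hx] at h2
  have h3 : (2 ^ j).totient ∣ 2 ^ j := by
    rcases j with _ | j
    · simp
    · rw [Nat.totient_prime_pow_succ Nat.prime_two]; simp [pow_succ]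
  have h4 := not_dvd_relIndex_of_le P hP
  have h5 : (((P : Subgroup G).subgroupOf _).map f.rangeRestrict).index = 1 :=
    Nat.eq_one_of_dvd_coprimes (((Nat.Prime.coprime_iff_not_dvd Nat.prime_two).2 h4).pow_left j) (h2.trans h3) h1
  obtain ⟨p, hp, e⟩ : f.rangeRestrict ⟨g, hg⟩ ∈ ((P : Subgroup G).subgroupOf _).map
    f.rangeRestrict := index_eq_one.1 h5 ▸ mem_top _
  refine ⟨p, hp, ?_⟩
  have := congrArg (fun φ : f.range => (((φ : MulAut (zpowers x)) ⟨x, mem_zpowers x⟩ : zpowers x) : G)) e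
  exact this.symm

end Cfsg.Agent.TwoGrp.ValField
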